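import Mathlib
import Cfsg.Agent.Lib.Helper98.Partition

set_option autoImplicit false

namespace Cfsg.Agent.Lib.Helper11.AltP

open Equiv Cfsg.Agent.Lib.Helper98

variable {Ω : Type*} [Fintype Ω] [DecidableEq Ω]

omit [DecidableEq Ω] in
theorem card_eq {a b : ℕ} (f : Ω → Fin b)
    (hf : ∀ i : Fin b, Nat.card {x : Ω // f x = i} = a) : Fintype.card Ω = b * a := by
  have := Fintype.card_congr (coords f hf)
  simpa using this

omit [DecidableEq Ω] in
/-- two distinct points in every fibre -/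
theorem exists_pair {a b : ℕ} (ha : 2 ≤ a) (f : Ω → Fin b)
    (hf : ∀ i : Fin b, Nat.card {x : Ω // f x = i} = a) (i : Fin b) :
    ∃ w w' : Ω, w ≠ w' ∧ f w = i ∧ f w' = i := by
  refine ⟨(coords f hf).symm (i, ⟨0, by omega⟩), (coords f hf).symm (i, ⟨1, by omega⟩), ?_,
    f_coords_symm f hf _, f_coords_symm f hf _⟩
  intro h
  have := (coords f hf).symm.injective h
  simp at this

omit [DecidableEq Ω] in
/-- another point in the fibre of `x` -/
theorem exists_other {a b : ℕ} (ha : 2 ≤ a) (f : Ω → Fin b)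
    (hf : ∀ i : Fin b, Nat.card {x : Ω // f x = i} = a) (x : Ω) :
    ∃ x' : Ω, x' ≠ x ∧ f x' = f x := by
  obtain ⟨w, w', hww, hw, hw'⟩ := exists_pair ha f hf (f x)
  by_cases h : w = x
  · exact ⟨w', fun h' => hww (h.trans h'.symm), hw'⟩
  · exact ⟨w, h, hw⟩

omit [DecidableEq Ω] in
/-- three distinct points in every fibre -/
theorem exists_triple {a b : ℕ} (ha : 3 ≤ a) (f : Ω → Fin b)
    (hf : ∀ i : Fin b, Nat.card {x : Ω // f x = i} = a) (i : Fin b) :
    ∃ w w' w'' : Ω, w ≠ w' ∧ w ≠ w'' ∧ w' ≠ w'' ∧ f w = i ∧ f w' = i ∧ f w'' = i := by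
  refine ⟨(coords f hf).symm (i, ⟨0, by omega⟩), (coords f hf).symm (i, ⟨1, by omega⟩),
    (coords f hf).symm (i, ⟨2, by omega⟩), ?_, ?_, ?_,
    f_coords_symm f hf _, f_coords_symm f hf _, f_coords_symm f hf _⟩ <;>
  · intro h
    have := (coords f hf).symm.injective h
    simp at this

omit [DecidableEq Ω] in
/-- two distinct points, different from `y`, in the fibre of `y` -/
theorem exists_pair_ne {a b : ℕ} (ha : 3 ≤ a) (f : Ω → Fin b)
    (hf : ∀ i : Fin b, Nat.card {x : Ω // f x = i} = a) (y : Ω) :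
    ∃ w w' : Ω, w ≠ w' ∧ w ≠ y ∧ w' ≠ y ∧ f w = f y ∧ f w' = f y := by
  obtain ⟨w, w', w'', h1, h2, h3, h4, h5, h6⟩ := exists_triple ha f hf (f y)
  by_cases hw : w = y
  · exact ⟨w', w'', h3, fun h => h1 (hw.trans h.symm), fun h => h2 (hw.trans h.symm), h5, h6⟩
  by_cases hw' : w' = y
  · exact ⟨w, w'', h2, hw, fun h => h3 (hw'.trans h.symm), h4, h6⟩
  · exact ⟨w, w', h1, hw, hw', h4, h5⟩

omit [DecidableEq Ω] in
/-- fibres of size two -/
theorem fibre_two {b : ℕ} (f : Ω → Fin b)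
    (hf : ∀ i : Fin b, Nat.card {x : Ω // f x = i} = 2) {x x' z : Ω} (hxx : x' ≠ x)
    (hx' : f x' = f x) (hz : f z = f x) : z = x ∨ z = x' := by
  by_contra hcon
  push Not at hcon
  have h2 := hf (f x)
  have h3 : 2 < Nat.card {y : Ω // f y = f x} := by
    rw [Nat.card_eq_fintype_card]
    apply Fintype.two_lt_card_iff.mpr
    refine ⟨⟨x, rfl⟩, ⟨x', hx'⟩, ⟨z, hz⟩, ?_, ?_, ?_⟩ <;> simp [Subtype.ext_iff]
    · exact hxx.symm
    · exact hcon.1.symm
    · exact hcon.2.symm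
  omega

theorem exists_index_ne {b : ℕ} (hb : 2 ≤ b) (i : Fin b) : ∃ j : Fin b, j ≠ i := by
  have : Nontrivial (Fin b) := Fin.nontrivial_iff_two_le.mpr hb
  exact exists_ne i

theorem exists_index_ne₂ {b : ℕ} (hb : 3 ≤ b) (i i' : Fin b) : ∃ j : Fin b, j ≠ i ∧ j ≠ i' := by
  have h : ({i, i'} : Finset (Fin b)).card < (Finset.univ : Finset (Fin b)).card := by
    have := Finset.card_le_two (a := i) (b := i')
    simp only [Finset.card_univ, Fintype.card_fin]
    omega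
  obtain ⟨j, -, hj⟩ := Finset.exists_mem_notMem_of_card_lt_card h
  simp only [Finset.mem_insert, Finset.mem_singleton, not_or] at hj
  exact ⟨j, hj.1, hj.2⟩

theorem exists_index_ne₄ {b : ℕ} (hb : 5 ≤ b) (i₁ i₂ i₃ i₄ : Fin b) :
    ∃ j : Fin b, j ≠ i₁ ∧ j ≠ i₂ ∧ j ≠ i₃ ∧ j ≠ i₄ := by
  have h : ({i₁, i₂, i₃, i₄} : Finset (Fin b)).card < (Finset.univ : Finset (Fin b)).card := by
    have := Finset.card_le_four (a := i₁) (b := i₂) (c := i₃) (d := i₄)
    simp only [Finset.card_univ, Fintype.card_fin]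
    omega
  obtain ⟨j, -, hj⟩ := Finset.exists_mem_notMem_of_card_lt_card h
  simp only [Finset.mem_insert, Finset.mem_singleton, not_or] at hj
  exact ⟨j, hj.1, hj.2.1, hj.2.2.1, hj.2.2.2⟩

/-- products of two swaps inside fibres are in `H` -/
theorem swap_mul_swap_mem {ι : Type*} {f : Ω → ι} {x x' y y' : Ω} (hx : x ≠ x') (hfx : f x = f x')
    (hy : y ≠ y') (hfy : f y = f y') :
    swap x x' * swap y y' ∈ partStab f ⊓ alternatingGroup Ω := by
  refine ⟨(partStab f).mul_mem (swap_mem_partStab hfx) (swap_mem_partStab hfy), ?_⟩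
  simp [Equiv.Perm.mem_alternatingGroup, Equiv.Perm.sign_swap hx, Equiv.Perm.sign_swap hy]

/-- parity correction: an element `g` of `partStab f` or `g * swap w w'` is in `H` -/
theorem parity_fix {ι : Type*} {f : Ω → ι} {g : Perm Ω} (hg : g ∈ partStab f) {w w' : Ω}
    (hw : w ≠ w') (hfw : f w = f w') :
    g ∈ partStab f ⊓ alternatingGroup Ω ∨ g * swap w w' ∈ partStab f ⊓ alternatingGroup Ω := by
  rcases Int.units_eq_one_or (Equiv.Perm.sign g) with h | h
  · exact Or.inl ⟨hg, h⟩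
  · refine Or.inr ⟨(partStab f).mul_mem hg (swap_mem_partStab hfw), ?_⟩
    simp [Equiv.Perm.mem_alternatingGroup, Equiv.Perm.sign_swap hw, h]

end Cfsg.Agent.Lib.Helper11.AltP
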