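import Mathlib
import Cfsg.Agent.Lib.Helper11.AltP.Basic

set_option autoImplicit false

namespace Cfsg.Agent.Lib.Helper11.AltP

open Equiv Cfsg.Agent.Lib.Helper98

variable {Ω : Type*} [Fintype Ω] [DecidableEq Ω]

/-- H is transitive inside a fibre. -/
theorem trans_fibre {a b : ℕ} (ha : 2 ≤ a) (hb : 2 ≤ b) (f : Ω → Fin b)
    (hf : ∀ i : Fin b, Nat.card {x : Ω // f x = i} = a) (x y : Ω) (hxy : f x = f y) :
    ∃ h ∈ partStab f ⊓ alternatingGroup Ω, h x = y := by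
  by_cases h : x = y
  · exact ⟨1, Subgroup.one_mem _, by simpa using h⟩
  obtain ⟨j, hj⟩ := exists_index_ne hb (f x)
  obtain ⟨w, w', hww, hw, hw'⟩ := exists_pair ha f hf j
  refine ⟨swap x y * swap w w', swap_mul_swap_mem h hxy hww (hw.trans hw'.symm), ?_⟩
  have h1 : x ≠ w := by rintro rfl; exact hj hw.symm
  have h2 : x ≠ w' := by rintro rfl; exact hj hw'.symm
  rw [Perm.mul_apply, swap_apply_of_ne_of_ne h1 h2, swap_apply_left]

/-- RUNG TRANS.  H is transitive. -/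
theorem trans_H {a b : ℕ} (ha : 2 ≤ a) (hb : 2 ≤ b) (f : Ω → Fin b)
    (hf : ∀ i : Fin b, Nat.card {x : Ω // f x = i} = a) (x y : Ω) :
    ∃ h ∈ partStab f ⊓ alternatingGroup Ω, h x = y := by
  obtain ⟨x', hx', hfx'⟩ := exists_other ha f hf x
  have hg := blockPerm_mem f hf (swap (f x) (f y))
  have key : ∃ g ∈ partStab f ⊓ alternatingGroup Ω, f (g x) = f y := by
    rcases parity_fix hg hx'.symm hfx'.symm with h | h
    · exact ⟨_, h, by rw [f_blockPerm f hf, swap_apply_left]⟩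
    · refine ⟨_, h, ?_⟩
      rw [Perm.mul_apply, swap_apply_left, f_blockPerm f hf, hfx', swap_apply_left]
  obtain ⟨g, hg, hgx⟩ := key
  obtain ⟨h, hh, hhx⟩ := trans_fibre ha hb f hf (g x) y hgx
  exact ⟨h * g, Subgroup.mul_mem _ hh hg, by rw [Perm.mul_apply, hhx]⟩

/-- RUNG C3A -/
theorem three_a {a b : ℕ} (ha : 3 ≤ a) (hb : 2 ≤ b) (f : Ω → Fin b)
    (hf : ∀ i : Fin b, Nat.card {x : Ω // f x = i} = a) :
    ∃ g ∈ partStab f ⊓ alternatingGroup Ω, g.IsThreeCycle := by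
  obtain ⟨w, w', w'', h1, h2, h3, h4, h5, h6⟩ := exists_triple ha f hf ⟨0, by omega⟩
  exact ⟨swap w w' * swap w w'', swap_mul_swap_mem h1 (h4.trans h5.symm) h2 (h4.trans h6.symm),
    Perm.isThreeCycle_swap_mul_swap_same h1 h2 h3⟩

/-- RUNG NE -/
theorem ne_alt {a b : ℕ} (ha : 2 ≤ a) (hb : 2 ≤ b) (f : Ω → Fin b)
    (hf : ∀ i : Fin b, Nat.card {x : Ω // f x = i} = a) :
    ¬ alternatingGroup Ω ≤ partStab f := by
  intro hle
  obtain ⟨x, x', hxx, hx, hx'⟩ := exists_pair ha f hf ⟨0, by omega⟩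
  obtain ⟨z, -, -, hz, -⟩ := exists_pair ha f hf ⟨1, by omega⟩
  have hxz : x ≠ z := by
    rintro rfl
    rw [hx] at hz
    simp [Fin.ext_iff] at hz
  have hxz' : x' ≠ z := by
    rintro rfl
    rw [hx'] at hz
    simp [Fin.ext_iff] at hz
  have h3 : (swap x x' * swap x z).IsThreeCycle := Perm.isThreeCycle_swap_mul_swap_same hxx hxz hxz'
  have hm := hle h3.mem_alternatingGroup
  have := (hm x x').mp (hx.trans hx'.symm)
  rw [Perm.mul_apply, Perm.mul_apply, swap_apply_left, swap_apply_of_ne_of_ne hxz.symm hxz'.symm,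
    swap_apply_of_ne_of_ne hxx.symm hxz', swap_apply_right, hz, hx] at this
  simp [Fin.ext_iff] at this

end Cfsg.Agent.Lib.Helper11.AltP
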