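import Mathlib
import Cfsg.Agent.Lib.Helper11.AltP.Small

set_option autoImplicit false

namespace Cfsg.Agent.Lib.Helper11.AltP

open Equiv Cfsg.Agent.Lib.Helper98

variable {Ω : Type*} [Fintype Ω] [DecidableEq Ω]

/-- RUNG N4.  n = 4. -/
theorem four (f : Ω → Fin 2)
    (hf : ∀ i : Fin 2, Nat.card {x : Ω // f x = i} = 2) (L : Subgroup (Perm Ω))
    (hHL : partStab f ⊓ alternatingGroup Ω < L) (hLA : L ≤ alternatingGroup Ω) :
    L = alternatingGroup Ω := by
  have hc : Fintype.card Ω = 4 := card_eq f hf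
  have hnt : Nontrivial Ω := by
    rw [← Fintype.one_lt_card_iff_nontrivial]; omega
  have hA : Nat.card (alternatingGroup Ω) = 12 := by
    rw [nat_card_alternatingGroup, Nat.card_eq_fintype_card, hc]
    rfl
  set H := partStab f ⊓ alternatingGroup Ω with hH
  have htr : MulAction.IsPretransitive H Ω := by
    constructor
    intro x y
    obtain ⟨h, hh, hxy⟩ := trans_H le_rfl le_rfl f hf x y
    exact ⟨⟨h, hh⟩, hxy⟩
  obtain ⟨x⟩ : Nonempty Ω := inferInstance
  have h4 : 4 ∣ Nat.card H := by
    have h1 := MulAction.index_stabilizer_of_transitive H x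
    rw [Nat.card_eq_fintype_card, hc] at h1
    rw [← h1]
    exact Subgroup.index_dvd_card _
  have h5 : Nat.card H ∣ Nat.card L := Subgroup.card_dvd_of_le hHL.le
  have h6 : Nat.card L ∣ 12 := hA ▸ Subgroup.card_dvd_of_le hLA
  have h7 : Nat.card H < Nat.card L := by
    rcases lt_or_eq_of_le (Nat.le_of_dvd Nat.card_pos h5) with h | h
    · exact h
    · exact absurd (Subgroup.eq_of_le_of_card_ge hHL.le h.ge) hHL.ne
  have h8 : Nat.card L = 12 := by
    have hle : Nat.card L ≤ 12 := Nat.le_of_dvd (by norm_num) h6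
    have h4L : 4 ∣ Nat.card L := h4.trans h5
    have hpos : 0 < Nat.card H := Nat.card_pos
    have hm : 4 ≤ Nat.card H := Nat.le_of_dvd hpos h4
    generalize Nat.card L = l at *
    generalize Nat.card H = m at *
    clear h5
    interval_cases l <;> omega
  exact Subgroup.eq_of_le_of_card_ge hLA (by rw [hA, h8])

end Cfsg.Agent.Lib.Helper11.AltP
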