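import Mathlib
import Cfsg.Agent.Lib.Helper11.AltP.Small

set_option autoImplicit false

namespace Cfsg.Agent.Lib.Helper11.AltP

open Equiv Cfsg.Agent.Lib.Helper98

variable {Ω : Type*} [Fintype Ω] [DecidableEq Ω]

omit [Fintype Ω] [DecidableEq Ω] in
theorem s1_break {ι : Type*} (f : Ω → ι) (L : Subgroup (Perm Ω)) (hL : ¬ L ≤ partStab f) :
    ∃ k ∈ L, ∃ x x' : Ω, f x = f x' ∧ f (k x) ≠ f (k x') := by
  obtain ⟨g, hgL, hg⟩ := SetLike.not_le_iff_exists.mp hL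
  rw [mem_partStab] at hg
  push Not at hg
  obtain ⟨x, y, hxy⟩ := hg
  rcases hxy with ⟨h1, h2⟩ | ⟨h1, h2⟩
  · exact ⟨g, hgL, x, y, h1, h2⟩
  · exact ⟨g⁻¹, L.inv_mem hgL, g x, g y, h2, by simpa using h1⟩

/-- RUNG S1. -/
theorem exists_sigma {b : ℕ} (hb : 3 ≤ b) (f : Ω → Fin b)
    (hf : ∀ i : Fin b, Nat.card {x : Ω // f x = i} = 2) (L : Subgroup (Perm Ω))
    (hHL : partStab f ⊓ alternatingGroup Ω ≤ L) (hL : ¬ L ≤ partStab f) :
    ∃ p q u v : Ω, f p ≠ f q ∧ u ≠ v ∧ u ≠ q ∧ v ≠ q ∧ f u ≠ f p ∧ f v ≠ f p ∧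
      swap p q * swap u v ∈ L := by
  obtain ⟨k, hk, x, x', hxx, hkx⟩ := s1_break f L hL
  have hne : x ≠ x' := fun h => hkx (by rw [h])
  obtain ⟨p', hp, hfp⟩ := exists_other le_rfl f hf (k x)
  obtain ⟨j, j1, j2⟩ := exists_index_ne₂ hb (f x) (f (k⁻¹ p'))
  obtain ⟨y, y', hyy, hy, hy'⟩ := exists_pair le_rfl f hf j
  have a1 : y ≠ x := fun h => j1 (by rw [← hy, h])
  have a2 : y' ≠ x := fun h => j1 (by rw [← hy', h])
  have a3 : y ≠ x' := fun h => j1 (by rw [← hy, h, hxx])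
  have a4 : y' ≠ x' := fun h => j1 (by rw [← hy', h, hxx])
  have a5 : k y ≠ p' := fun h => j2 (by rw [← hy, ← h]; simp)
  have a6 : k y' ≠ p' := fun h => j2 (by rw [← hy', ← h]; simp)
  refine ⟨k x, k x', k y, k y', hkx, fun h => hyy (k.injective h), fun h => a3 (k.injective h),
    fun h => a4 (k.injective h), ?_, ?_, ?_⟩
  · intro h
    rcases fibre_two f hf hp hfp h with h' | h'
    · exact a1 (k.injective h')
    · exact a5 h'
  · intro h
    rcases fibre_two f hf hp hfp h with h' | h'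
    · exact a2 (k.injective h')
    · exact a6 h'
  · have h1 := hHL (swap_mul_swap_mem hne hxx hyy (hy.trans hy'.symm))
    have : swap (k x) (k x') * swap (k y) (k y') = k * (swap x x' * swap y y') * k⁻¹ := by
      rw [swap_apply_apply, swap_apply_apply]
      group
    rw [this]
    exact L.mul_mem (L.mul_mem hk h1) (L.inv_mem hk)

end Cfsg.Agent.Lib.Helper11.AltP
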