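import Mathlib
import Cfsg.Agent.Lib.Helper11.AltP.Small

set_option autoImplicit false

namespace Cfsg.Agent.Lib.Helper11.AltP

open Equiv Cfsg.Agent.Lib.Helper98

variable {Ω : Type*} [Fintype Ω] [DecidableEq Ω]

/-- the block swap for blocks of size two -/
theorem s2_beta_mem {b : ℕ} (f : Ω → Fin b)
    (hf : ∀ i : Fin b, Nat.card {x : Ω // f x = i} = 2) {p p' q q' : Ω}
    (hpq : f p ≠ f q) (hp : p' ≠ p) (hfp : f p' = f p) (hq : q' ≠ q) (hfq : f q' = f q) :
    swap p q * swap p' q' ∈ partStab f ⊓ alternatingGroup Ω := by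
  have h1 : p ≠ q := fun h => hpq (by rw [h])
  have h2 : p' ≠ q' := fun h => hpq (by rw [← hfp, h, hfq])
  refine ⟨mem_partStab_of_comp (swap (f p) (f q)) ?_, ?_⟩
  · intro x
    by_cases hxp : f x = f p
    · rcases fibre_two f hf hp hfp hxp with rfl | rfl
      · have h3 : x ≠ p' := hp.symm
        have h4 : x ≠ q' := fun h => hpq (by rw [h, hfq])
        rw [Perm.mul_apply, swap_apply_of_ne_of_ne h3 h4, swap_apply_left, swap_apply_left]
      · have h3 : q' ≠ p := fun h => hpq (by rw [← h, hfq])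
        rw [Perm.mul_apply, swap_apply_left, swap_apply_of_ne_of_ne h3 hq, hfq, hfp,
          swap_apply_left]
    by_cases hxq : f x = f q
    · rcases fibre_two f hf hq hfq hxq with rfl | rfl
      · have h3 : x ≠ p' := fun h => hpq (by rw [h, hfp])
        rw [Perm.mul_apply, swap_apply_of_ne_of_ne h3 hq.symm, swap_apply_right, swap_apply_right]
      · have h3 : p' ≠ q := fun h => hpq (by rw [← h, hfp])
        rw [Perm.mul_apply, swap_apply_right, swap_apply_of_ne_of_ne hp h3, hfq, hfp,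
          swap_apply_right]
    · have e1 : x ≠ p := fun h => hxp (by rw [h])
      have e2 : x ≠ p' := fun h => hxp (by rw [h, hfp])
      have e3 : x ≠ q := fun h => hxq (by rw [h])
      have e4 : x ≠ q' := fun h => hxq (by rw [h, hfq])
      rw [Perm.mul_apply, swap_apply_of_ne_of_ne e2 e4, swap_apply_of_ne_of_ne e1 e3,
        swap_apply_of_ne_of_ne hxp hxq]
  · simp [Equiv.Perm.mem_alternatingGroup, Equiv.Perm.sign_swap h1, Equiv.Perm.sign_swap h2]

/-- case (i) -/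
theorem s2_case_i {b : ℕ} (f : Ω → Fin b)
    (hf : ∀ i : Fin b, Nat.card {x : Ω // f x = i} = 2) (L : Subgroup (Perm Ω))
    (hHL : partStab f ⊓ alternatingGroup Ω ≤ L) {p q u v : Ω}
    (hpq : f p ≠ f q) (huv : u ≠ v) (huq : u ≠ q) (hvp : f v ≠ f p)
    (hs : swap p q * swap u v ∈ L) (hfu : f u = f q) :
    ∃ g ∈ L, g.IsThreeCycle := by
  obtain ⟨p', hp, hfp⟩ := exists_other le_rfl f hf p
  have hb := hHL (s2_beta_mem f hf hpq hp hfp huq hfu)
  have hup' : u ≠ p' := fun h => hpq (by rw [← hfp, ← h, hfu])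
  have hvp' : v ≠ p' := fun h => hvp (by rw [h, hfp])
  refine ⟨swap u v * swap u p', ?_, Perm.isThreeCycle_swap_mul_swap_same huv hup' hvp'⟩
  have : swap u v * swap u p' = (swap p q * swap u v)⁻¹ * (swap p q * swap p' u) := by
    rw [mul_inv_rev, swap_inv, swap_inv, mul_assoc, ← mul_assoc (swap p q), swap_mul_self, one_mul,
      swap_comm u p']
  rw [this]
  exact L.mul_mem (L.inv_mem hs) hb

/-- case (ii) -/
theorem s2_case_ii {ι : Type*} (f : Ω → ι) (L : Subgroup (Perm Ω))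
    (hHL : partStab f ⊓ alternatingGroup Ω ≤ L) {p p' q u v e e' : Ω}
    (hpq : p ≠ q) (hp : p' ≠ p) (hp'q : p' ≠ q) (hfp : f p' = f p)
    (hup : u ≠ p) (hup' : u ≠ p') (hvp : v ≠ p) (hvp' : v ≠ p') (huq : u ≠ q) (hvq : v ≠ q)
    (hs : swap p q * swap u v ∈ L) (hee : e ≠ e') (hfe : f e = f e')
    (he : e ≠ p ∧ e ≠ p' ∧ e ≠ q) (he' : e' ≠ p ∧ e' ≠ p' ∧ e' ≠ q)
    (hcomm : (e = u ∧ e' = v) ∨ (e ≠ u ∧ e ≠ v ∧ e' ≠ u ∧ e' ≠ v)) :
    ∃ g ∈ L, g.IsThreeCycle := by
  have ht := hHL (swap_mul_swap_mem hp.symm hfp.symm hee hfe)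
  refine ⟨swap q p * swap q p', ?_, Perm.isThreeCycle_swap_mul_swap_same hpq.symm hp'q.symm hp.symm⟩
  have key : swap q p * swap q p' = (swap p q * swap u v) *
      ((swap p p' * swap e e') * (swap p q * swap u v) * (swap p p' * swap e e')⁻¹) := by
    ext w
    simp only [Perm.mul_apply, swap_apply_def, mul_inv_rev, swap_inv]
    grind
  rw [key]
  exact L.mul_mem hs (L.mul_mem (L.mul_mem ht hs) (L.inv_mem ht))

/-- RUNG S2. -/
theorem three_of_sigma {b : ℕ} (hb4 : b ≠ 4) (f : Ω → Fin b)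
    (hf : ∀ i : Fin b, Nat.card {x : Ω // f x = i} = 2) (L : Subgroup (Perm Ω))
    (hHL : partStab f ⊓ alternatingGroup Ω ≤ L) {p q u v : Ω}
    (hpq : f p ≠ f q) (huv : u ≠ v) (huq : u ≠ q) (hvq : v ≠ q) (hup : f u ≠ f p) (hvp : f v ≠ f p)
    (hs : swap p q * swap u v ∈ L) :
    ∃ g ∈ L, g.IsThreeCycle := by
  by_cases hfu : f u = f q
  · exact s2_case_i f hf L hHL hpq huv huq hvp hs hfu
  by_cases hfv : f v = f q
  · rw [swap_comm u v] at hs
    exact s2_case_i f hf L hHL hpq huv.symm hvq hup hs hfv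
  obtain ⟨p', hp, hfp⟩ := exists_other le_rfl f hf p
  have n1 : p ≠ q := fun h => hpq (by rw [h])
  have n2 : p' ≠ q := fun h => hpq (by rw [← hfp, h])
  have n3 : u ≠ p := fun h => hup (by rw [h])
  have n4 : u ≠ p' := fun h => hup (by rw [h, hfp])
  have n5 : v ≠ p := fun h => hvp (by rw [h])
  have n6 : v ≠ p' := fun h => hvp (by rw [h, hfp])
  by_cases hfuv : f u = f v
  · exact s2_case_ii f L hHL n1 hp n2 hfp n3 n4 n5 n6 huq hvq hs huv hfuv ⟨n3, n4, huq⟩
      ⟨n5, n6, hvq⟩ (Or.inl ⟨rfl, rfl⟩)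
  · have hb5 : 5 ≤ b := by
      have h4 : ({f p, f q, f u, f v} : Finset (Fin b)).card = 4 := by
        rw [Finset.card_insert_of_notMem, Finset.card_insert_of_notMem,
          Finset.card_insert_of_notMem, Finset.card_singleton]
        · simpa using hfuv
        · simp only [Finset.mem_insert, Finset.mem_singleton, not_or]
          exact ⟨Ne.symm hfu, Ne.symm hfv⟩
        · simp only [Finset.mem_insert, Finset.mem_singleton, not_or]
          exact ⟨hpq, Ne.symm hup, Ne.symm hvp⟩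
      have := Finset.card_le_univ ({f p, f q, f u, f v} : Finset (Fin b))
      rw [h4, Fintype.card_fin] at this
      omega
    obtain ⟨j, j1, j2, j3, j4⟩ := exists_index_ne₄ hb5 (f p) (f q) (f u) (f v)
    obtain ⟨e, e', hee, he, he'⟩ := exists_pair le_rfl f hf j
    refine s2_case_ii f L hHL n1 hp n2 hfp n3 n4 n5 n6 huq hvq hs hee (he.trans he'.symm)
      ⟨?_, ?_, ?_⟩ ⟨?_, ?_, ?_⟩ (Or.inr ⟨?_, ?_, ?_, ?_⟩) <;> rintro rfl <;> simp_all

end Cfsg.Agent.Lib.Helper11.AltP
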