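import Mathlib
import Cfsg.Agent.Lib.Helper11.AltP.S1
import Cfsg.Agent.Lib.Helper11.AltP.S2
import Cfsg.Agent.Lib.Helper11.AltP.N4
import Cfsg.Agent.Lib.Helper98.AltPPC

set_option autoImplicit false

namespace Cfsg.Agent.Lib.Helper11.AltP

open Equiv Cfsg.Agent.Lib.Helper98

variable {Ω : Type*} [Fintype Ω] [DecidableEq Ω]

theorem three_b {b : ℕ} (hb : 3 ≤ b) (hb4 : b ≠ 4) (f : Ω → Fin b)
    (hf : ∀ i : Fin b, Nat.card {x : Ω // f x = i} = 2) (L : Subgroup (Perm Ω))
    (hHL : partStab f ⊓ alternatingGroup Ω ≤ L) (hL : ¬ L ≤ partStab f) :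
    ∃ g ∈ L, g.IsThreeCycle := by
  obtain ⟨p, q, u, v, h1, h2, h3, h4, h5, h6, h7⟩ := exists_sigma hb f hf L hHL hL
  exact three_of_sigma hb4 f hf L hHL h1 h2 h3 h4 h5 h6 h7

theorem main (h8 : Fintype.card Ω ≠ 8) {a b : ℕ} (ha : 2 ≤ a) (hb : 2 ≤ b) (f : Ω → Fin b)
    (hf : ∀ i : Fin b, Nat.card {x : Ω // f x = i} = a) (L : Subgroup (Perm Ω))
    (hHL : partStab f ⊓ alternatingGroup Ω < L) (hLA : L ≤ alternatingGroup Ω) :
    L = alternatingGroup Ω := by
  have hL : ¬ L ≤ partStab f := fun h => absurd (le_inf h hLA) (not_le_of_gt hHL)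
  by_cases hab : 3 ≤ a ∨ 3 ≤ b
  · have hp := prim ha hb hab f hf L hHL.le hL
    have h3 : ∃ g ∈ L, g.IsThreeCycle := by
      by_cases ha3 : 3 ≤ a
      · obtain ⟨g, hg, hg3⟩ := three_a ha3 hb f hf
        exact ⟨g, hHL.le hg, hg3⟩
      · have ha2 : a = 2 := by omega
        subst ha2
        have hb3 : 3 ≤ b := by omega
        have hb4 : b ≠ 4 := by
          rintro rfl
          exact h8 (card_eq f hf)
        exact three_b hb3 hb4 f hf L hHL.le hL
    obtain ⟨g, hg, hg3⟩ := h3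
    exact le_antisymm hLA
      (Equiv.Perm.alternatingGroup_le_of_isPreprimitive_of_isThreeCycle_mem hp hg3 hg)
  · have ha2 : a = 2 := by omega
    have hb2 : b = 2 := by omega
    subst ha2 hb2
    exact four f hf L hHL hLA

theorem isCoatom_main (h8 : Fintype.card Ω ≠ 8) (a b : ℕ) (ha : 2 ≤ a) (hb : 2 ≤ b)
    (f : Ω → Fin b) (hf : ∀ i : Fin b, Nat.card {x : Ω // f x = i} = a) :
    IsCoatom ((Subgroup.closure {g : Equiv.Perm Ω | ∀ x y : Ω, f x = f y ↔ f (g x) = f (g y)} ⊓
      alternatingGroup Ω).subgroupOf (alternatingGroup Ω)) := by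
  rw [closure_partStab]
  constructor
  · intro h
    rw [Subgroup.subgroupOf_eq_top] at h
    exact ne_alt ha hb f hf (h.trans inf_le_left)
  · intro M hM
    have h1 : partStab f ⊓ alternatingGroup Ω < M.map (alternatingGroup Ω).subtype := by
      have h2 : ((partStab f ⊓ alternatingGroup Ω).subgroupOf (alternatingGroup Ω)).map
          (alternatingGroup Ω).subtype = partStab f ⊓ alternatingGroup Ω := by
        rw [Subgroup.subgroupOf_map_subtype]
        simp
      rw [← h2]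
      exact (Subgroup.map_lt_map_iff_of_injective (Subgroup.subtype_injective _)).mpr hM
    have h3 : M.map (alternatingGroup Ω).subtype ≤ alternatingGroup Ω := by
      rintro _ ⟨x, -, rfl⟩
      exact x.2
    have h4 := main h8 ha hb f hf _ h1 h3
    rw [eq_top_iff]
    intro x _
    have : (x : Perm Ω) ∈ M.map (alternatingGroup Ω).subtype := by
      rw [h4]; exact x.2
    obtain ⟨y, hy, hyx⟩ := this
    have : y = x := Subtype.ext hyx
    rwa [← this]

end Cfsg.Agent.Lib.Helper11.AltP
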